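import Mathlib

/-!
Groups acting faithfully on a symplectic space: involutions with a plane as `-1`-eigenspace.
-/

set_option autoImplicit false
set_option linter.unusedSectionVars false

namespace CF.PnSp

variable {G F V : Type*} [Group G] [Field F] [AddCommGroup V] [Module F V] [DistribMulAction G V]
  [SMulCommClass G F V]

/-- `G` acts faithfully by isometries of the nondegenerate alternating form `B`. -/
structure Sy (G : Type*) [Group G] [DistribMulAction G V] (B : LinearMap.BilinForm F V) :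
    Prop where
  two : (2 : F) ≠ 0
  alt : ∀ v, B v v = 0
  nd : ∀ v, (∀ w, B v w = 0) → v = 0
  inv : ∀ (g : G) u v, B (g • u) (g • v) = B u v
  faith : ∀ g : G, (∀ v : V, g • v = v) → g = 1

theorem sm (g : G) (a : F) (v : V) : g • (a • v) = a • (g • v) := smul_comm g a v

/-- `z` is `-1` on the plane spanned by the hyperbolic pair `e, f`, and `1` on its perp. -/
def HP (B : LinearMap.BilinForm F V) (z : G) (e f : V) : Prop :=
  B e f = 1 ∧ ∀ v, z • v = v - (2 : F) • (B v f • e - B v e • f)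

/-- Plane involutions. -/
def PI (B : LinearMap.BilinForm F V) (z : G) : Prop := ∃ e f, HP B z e f

variable (V) in
/-- The `-1`-eigenspace of `w` is fixed by `z`. -/
def Orth (z w : G) : Prop := ∀ v : V, w • v = -v → z • v = v

variable (V) in
/-- The pointwise stabilizer of the fixed space of `c`. -/
def Gam (c : G) : Subgroup G where
  carrier := {x | ∀ v : V, c • v = v → x • v = v}
  one_mem' := fun v _ => one_smul G v
  mul_mem' := fun {a b} ha hb v hv => by rw [mul_smul, hb v hv, ha v hv]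
  inv_mem' := fun {a} ha v hv => by rw [inv_smul_eq_iff, ha v hv]

theorem mem_Gam {c x : G} : x ∈ Gam V c ↔ ∀ v : V, c • v = v → x • v = v := Iff.rfl

theorem self_mem_Gam (c : G) : c ∈ Gam V c := fun _ h => h

theorem conj_mem_Gam {c x : G} (g : G) (h : x ∈ Gam V c) : g * x * g⁻¹ ∈ Gam V (g * c * g⁻¹) := by
  intro v hv
  rw [mul_smul, mul_smul, smul_eq_iff_eq_inv_smul] at hv ⊢
  exact h _ hv

theorem conj_minus {c : G} (g : G) {v : V} (h : c • v = -v) : (g * c * g⁻¹) • g • v = -(g • v) := by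
  rw [mul_smul, mul_smul, inv_smul_smul, h, smul_neg]

theorem conj_plus {c : G} (g : G) {v : V} (h : c • v = v) : (g * c * g⁻¹) • g • v = g • v := by
  rw [mul_smul, mul_smul, inv_smul_smul, h]

theorem minus_of_comm {c g : G} (hc : g * c = c * g) {v : V} (h : c • v = -v) :
    c • g • v = -(g • v) := by
  rw [← mul_smul, ← hc, mul_smul, h, smul_neg]

theorem plus_of_comm {c g : G} (hc : g * c = c * g) {v : V} (h : c • v = v) :
    c • g • v = g • v := by
  rw [← mul_smul, ← hc, mul_smul, h]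

theorem Orth.conj {z w : G} (h : Orth V z w) (g : G) : Orth V (g * z * g⁻¹) (g * w * g⁻¹) := by
  intro v hv
  have h1 : w • g⁻¹ • v = -(g⁻¹ • v) := by
    have := conj_minus g⁻¹ hv
    simpa [mul_assoc] using this
  have := conj_plus g (h _ h1)
  rwa [smul_inv_smul] at this

variable {B : LinearMap.BilinForm F V}

namespace Sy

variable (h : Sy G B)
include h

theorem skew (u v : V) : B u v = -B v u := by
  have := h.alt (u + v)
  simp only [map_add, LinearMap.add_apply, h.alt] at this
  linear_combination this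

theorem inv' (g : G) (u v : V) : B (g • u) v = B u (g⁻¹ • v) := by
  rw [← h.inv g u, smul_inv_smul]

theorem ext {g g' : G} (H : ∀ v : V, g • v = g' • v) : g = g' := by
  have := h.faith (g'⁻¹ * g) fun v => by rw [mul_smul, H, inv_smul_smul]
  exact (inv_mul_eq_one.1 this).symm

theorem two_smul_eq_zero {v : V} (H : (2 : F) • v = 0) : v = 0 :=
  (smul_eq_zero.1 H).resolve_left h.two

theorem eq_zero_of_mp {c : G} {v : V} (h1 : c • v = -v) (h2 : c • v = v) : v = 0 := by
  apply h.two_smul_eq_zero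
  rw [two_smul]
  nth_rewrite 1 [← h2, h1]
  exact neg_add_cancel v

theorem mp {c : G} {u v : V} (h1 : c • u = -u) (h2 : c • v = v) : B u v = 0 := by
  have := h.inv c u v
  rw [h1, h2, map_neg, LinearMap.neg_apply] at this
  have h3 : (2 : F) * B u v = 0 := by linear_combination -this
  exact (mul_eq_zero.1 h3).resolve_left h.two

theorem pm {c : G} {u v : V} (h1 : c • u = u) (h2 : c • v = -v) : B u v = 0 := by
  rw [h.skew, h.mp h2 h1, neg_zero]

/-- Decomposition with respect to an involution. -/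
theorem dec {c : G} (hc : c * c = 1) (v : V) :
    ∃ p m : V, c • p = p ∧ c • m = -m ∧ v = p + m := by
  have h2 := h.two
  have hcc : c • c • v = v := by rw [← mul_smul, hc, one_smul]
  refine ⟨(2 : F)⁻¹ • (v + c • v), (2 : F)⁻¹ • (v - c • v), ?_, ?_, ?_⟩
  · rw [sm, smul_add, hcc, add_comm]
  · rw [sm, smul_sub, hcc, ← smul_neg, neg_sub]
  · rw [← smul_add, add_add_sub_cancel, ← two_smul F, smul_smul, inv_mul_cancel₀ h2, one_smul]

theorem minus_of_orth {c : G} (hc : c * c = 1) {u : V} (H : ∀ p, c • p = p → B u p = 0) :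
    c • u = -u := by
  obtain ⟨p, m, hp, hm, rfl⟩ := h.dec hc u
  have : p = 0 := h.nd p fun w => by
    obtain ⟨p', m', hp', hm', rfl⟩ := h.dec hc w
    have := H p' hp'
    rw [map_add, LinearMap.add_apply, h.mp hm hp', add_zero] at this
    rw [map_add, this, h.pm hp hm', add_zero]
  rw [this, zero_add, hm]

theorem plus_of_orth {c : G} (hc : c * c = 1) {u : V} (H : ∀ m, c • m = -m → B u m = 0) :
    c • u = u := by
  obtain ⟨p, m, hp, hm, rfl⟩ := h.dec hc u
  have : m = 0 := h.nd m fun w => by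
    obtain ⟨p', m', hp', hm', rfl⟩ := h.dec hc w
    have := H m' hm'
    rw [map_add, LinearMap.add_apply, h.pm hp hm', zero_add] at this
    rw [map_add, this, h.mp hm hp', add_zero]
  rw [this, add_zero, hp]

theorem orth_symm {z w : G} (hw : w * w = 1) (H : Orth V z w) : Orth V w z :=
  fun _ hv => h.plus_of_orth hw fun m hm => h.mp hv (H m hm)

theorem gam_minus {c x : G} (hc : c * c = 1) (hx : x ∈ Gam V c) {v : V} (hv : c • v = -v) :
    c • x • v = -(x • v) :=
  h.minus_of_orth hc fun p hp => by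
    rw [h.inv', (Gam V c).inv_mem hx p hp, h.mp hv hp]

theorem gam_comm {c x : G} (hc : c * c = 1) (hx : x ∈ Gam V c) : x * c = c * x := by
  refine h.ext fun v => ?_
  obtain ⟨p, m, hp, hm, rfl⟩ := h.dec hc v
  simp only [mul_smul, smul_add, hp, hm, hx p hp, h.gam_minus hc hx hm, smul_neg]

theorem gam_ext {c x y : G} (hc : c * c = 1) (hx : x ∈ Gam V c) (hy : y ∈ Gam V c)
    (H : ∀ m : V, c • m = -m → x • m = y • m) : x = y := by
  refine h.ext fun v => ?_
  obtain ⟨p, m, hp, hm, rfl⟩ := h.dec hc v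
  rw [smul_add, smul_add, hx p hp, hy p hp, H m hm]

theorem gam_plus_of_orth {z w y : G} (hw : w * w = 1) (H : Orth V z w) (hy : y ∈ Gam V w) {p : V}
    (hp : z • p = p) : z • y • p = y • p := by
  obtain ⟨p', m', hp', hm', rfl⟩ := h.dec hw p
  have h1 := H m' hm'
  have h2 : z • p' = p' := by
    rw [smul_add, h1] at hp
    exact add_right_cancel hp
  rw [smul_add, smul_add, hy p' hp', h2, H _ (h.gam_minus hw hy hm')]

theorem gam_commute {z w x y : G} (hz : z * z = 1) (hw : w * w = 1) (H : Orth V z w)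
    (hx : x ∈ Gam V z) (hy : y ∈ Gam V w) : x * y = y * x := by
  have H' := h.orth_symm hw H
  refine h.ext fun v => ?_
  obtain ⟨p, m, hp, hm, rfl⟩ := h.dec hz v
  simp only [mul_smul, smul_add, hx p hp, hy m (H' m hm), hx _ (h.gam_plus_of_orth hw H hy hp),
    hy _ (H' _ (h.gam_minus hz hx hm))]

theorem orth_comm {z w : G} (hz : z * z = 1) (hw : w * w = 1) (H : Orth V z w) : z * w = w * z :=
  h.gam_commute hz hw H (self_mem_Gam z) (self_mem_Gam w)

theorem plus_mul_iff {z w : G} (hz : z * z = 1) (hw : w * w = 1) (H : Orth V z w) {v : V} :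
    (z * w) • v = v ↔ z • v = v ∧ w • v = v := by
  refine ⟨fun hv => ?_, fun hv => by rw [mul_smul, hv.2, hv.1]⟩
  obtain ⟨p, m, hp, hm, rfl⟩ := h.dec hw v
  obtain ⟨p', m', hp', hm', rfl⟩ := h.dec hz p
  have h1 := H m hm
  have h2 := h.orth_symm hw H m' hm'
  have h3 : w • p' = p' := by
    rw [smul_add, h2] at hp
    exact add_right_cancel hp
  simp only [mul_smul, smul_add, h3, h2, hm, hp', hm', smul_neg, h1] at hv
  have h4 : m' + m = 0 := by
    apply h.two_smul_eq_zero
    rw [two_smul]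
    linear_combination (norm := module) -hv
  have h5 : m = 0 := by
    refine h.eq_zero_of_mp (c := z) ?_ h1
    rw [eq_neg_of_add_eq_zero_right h4, smul_neg, hm']
  rw [h5, add_zero] at h4
  simp [h4, h5, hp', h3]

end Sy

namespace HP

variable {z : G} {e f : V}

theorem one (H : HP B z e f) : B e f = 1 := H.1

theorem act (H : HP B z e f) (v : V) : z • v = v - (2 : F) • (B v f • e - B v e • f) := H.2 v

theorem conj (h : Sy G B) (H : HP B z e f) (g : G) : HP B (g * z * g⁻¹) (g • e) (g • f) := by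
  refine ⟨by rw [h.inv, H.1], fun v => ?_⟩
  rw [mul_smul, mul_smul, H.2, smul_sub, smul_inv_smul, sm, smul_sub, sm, sm, h.inv', h.inv',
    inv_inv]

theorem minus_iff (h : Sy G B) (H : HP B z e f) {v : V} :
    z • v = -v ↔ v = B v f • e - B v e • f := by
  rw [H.2]
  constructor
  · intro hv
    rw [← sub_eq_zero]
    apply h.two_smul_eq_zero
    linear_combination (norm := module) hv
  · intro hv
    rw [← hv, two_smul]
    abel

theorem fe (h : Sy G B) (H : HP B z e f) : B f e = -1 := by rw [h.skew, H.1]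

theorem minus_e (h : Sy G B) (H : HP B z e f) : z • e = -e := by
  rw [H.minus_iff h, H.1, h.alt]; simp

theorem minus_f (h : Sy G B) (H : HP B z e f) : z • f = -f := by
  rw [H.minus_iff h, H.fe h, h.alt]; simp

theorem minus_lin (h : Sy G B) (H : HP B z e f) (a b : F) :
    z • (a • e + b • f) = -(a • e + b • f) := by
  rw [smul_add, sm, sm, H.minus_e h, H.minus_f h]; module

theorem minus_pr (h : Sy G B) (H : HP B z e f) (a b : F) :
    z • (a • e - b • f) = -(a • e - b • f) := by
  rw [smul_sub, sm, sm, H.minus_e h, H.minus_f h]; module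

theorem plus_iff (h : Sy G B) (H : HP B z e f) {v : V} : z • v = v ↔ B v e = 0 ∧ B v f = 0 :=
  ⟨fun hv => ⟨h.pm hv (H.minus_e h), h.pm hv (H.minus_f h)⟩, fun hv => by
    rw [H.2, hv.1, hv.2]; simp⟩

theorem sq (h : Sy G B) (H : HP B z e f) : z * z = 1 := by
  refine h.faith _ fun v => ?_
  rw [mul_smul, H.2 v, smul_sub, sm, H.minus_pr h, H.2 v]
  module

theorem e_ne (H : HP B z e f) : e ≠ 0 := by
  intro h0
  have := H.1
  rw [h0] at this
  simp at this

theorem ne_one (h : Sy G B) (H : HP B z e f) : z ≠ 1 := by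
  intro h1
  refine H.e_ne (h.eq_zero_of_mp (H.minus_e h) ?_)
  rw [h1, one_smul]

theorem change (h : Sy G B) (H : HP B z e f) {u v : V} (hu : z • u = -u) (hv : z • v = -v)
    (huv : B u v = 1) : HP B z u v := by
  refine ⟨huv, fun y => ?_⟩
  rw [H.minus_iff h] at hu hv
  generalize B u f = a at hu
  generalize B u e = b at hu
  generalize B v f = c at hv
  generalize B v e = d at hv
  subst hu hv
  simp only [map_sub, map_smul, LinearMap.sub_apply, LinearMap.smul_apply, h.alt, H.1, H.fe h,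
    smul_eq_mul] at huv ⊢
  rw [H.2 y]
  match_scalars
  · ring
  · linear_combination (2 * B y f) * huv
  · linear_combination (-2 * B y e) * huv

theorem eq (h : Sy G B) {w : G} (H : HP B z e f) (H' : HP B w e f) : z = w :=
  h.ext fun v => by rw [H.2, H'.2]

theorem exists_partner (h : Sy G B) (H : HP B z e f) {u : V} (hu : z • u = -u) (h0 : u ≠ 0) :
    ∃ v, z • v = -v ∧ B u v = 1 := by
  by_cases h1 : B u f = 0
  · have h2 : B u e ≠ 0 := fun h2 => h0 (by rw [(H.minus_iff h).1 hu, h1, h2]; simp)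
    refine ⟨(B u e)⁻¹ • e, by rw [sm, H.minus_e h, smul_neg], ?_⟩
    rw [map_smul, smul_eq_mul, inv_mul_cancel₀ h2]
  · refine ⟨(B u f)⁻¹ • f, by rw [sm, H.minus_f h, smul_neg], ?_⟩
    rw [map_smul, smul_eq_mul, inv_mul_cancel₀ h1]

end HP

namespace PI

variable {z w : G}

theorem conj (h : Sy G B) (H : PI B z) (g : G) : PI B (g * z * g⁻¹) := by
  obtain ⟨e, f, H⟩ := H
  exact ⟨_, _, H.conj h g⟩

theorem sq (h : Sy G B) (H : PI B z) : z * z = 1 := by
  obtain ⟨e, f, H⟩ := H
  exact H.sq h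

theorem inv_eq (h : Sy G B) (H : PI B z) : z⁻¹ = z := inv_eq_of_mul_eq_one_left (H.sq h)

theorem ne_one (h : Sy G B) (H : PI B z) : z ≠ 1 := by
  obtain ⟨e, f, H⟩ := H
  exact H.ne_one h

theorem exists_ne (h : Sy G B) (H : PI B z) : ∃ v : V, z • v = -v ∧ v ≠ 0 := by
  obtain ⟨e, f, H⟩ := H
  exact ⟨e, H.minus_e h, H.e_ne⟩

theorem hp (h : Sy G B) (H : PI B z) {u v : V} (hu : z • u = -u) (hv : z • v = -v)
    (huv : B u v = 1) : HP B z u v := by
  obtain ⟨e, f, H⟩ := H
  exact H.change h hu hv huv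

theorem exists_hp (h : Sy G B) (H : PI B z) {u : V} (hu : z • u = -u) (h0 : u ≠ 0) :
    ∃ v, HP B z u v := by
  obtain ⟨e, f, H⟩ := H
  obtain ⟨v, hv, huv⟩ := H.exists_partner h hu h0
  exact ⟨v, H.change h hu hv huv⟩

theorem eq_of_le (h : Sy G B) (H : PI B z) (H' : PI B w) (hle : ∀ v : V, z • v = -v → w • v = -v) :
    z = w := by
  obtain ⟨e, f, H⟩ := H
  exact H.eq h (H'.hp h (hle _ (H.minus_e h)) (hle _ (H.minus_f h)) H.1)

theorem not_orth_self (h : Sy G B) (H : PI B z) : ¬ Orth V z z := by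
  intro ho
  obtain ⟨v, hv, h0⟩ := H.exists_ne h
  exact h0 (h.eq_zero_of_mp hv (ho v hv))

theorem eq_or_orth (h : Sy G B) (H : PI B z) (H' : PI B w) (hc : z * w = w * z) :
    z = w ∨ Orth V z w := by
  have key : ∀ v : V, w • v = -v → ∃ p m : V, z • p = p ∧ z • m = -m ∧ v = p + m ∧ w • m = -m := by
    intro v hv
    obtain ⟨p, m, hp, hm, rfl⟩ := h.dec (H.sq h) v
    refine ⟨p, m, hp, hm, rfl, ?_⟩
    have h1 := minus_of_comm hc hv
    simp only [smul_add, hp, hm, smul_neg] at h1 hv
    rw [← sub_eq_zero]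
    apply h.two_smul_eq_zero
    rw [two_smul]
    linear_combination (norm := abel) hv - h1
  by_cases h0 : ∃ u : V, z • u = -u ∧ w • u = -u ∧ u ≠ 0
  · left
    obtain ⟨u, h1, h2, h3⟩ := h0
    obtain ⟨y, hy⟩ := H'.exists_hp h h2 h3
    obtain ⟨p, m, hp, hm, rfl, hm'⟩ := key y (hy.minus_f h)
    have h4 : B u m = 1 := by
      have := hy.1
      rwa [map_add, h.mp h1 hp, zero_add] at this
    exact (H.hp h h1 hm h4).eq h (H'.hp h h2 hm' h4)
  · right
    intro v hv
    obtain ⟨p, m, hp, hm, rfl, hm'⟩ := key v hv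
    have : m = 0 := by
      by_contra hne
      exact h0 ⟨m, hm, hm', hne⟩
    rw [this, add_zero, hp]

end PI

end CF.PnSp
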