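import Cfsg.Agent.Known.Pn.P2

/-!
Plane involutions in general position.
-/

set_option autoImplicit false
set_option linter.unusedSectionVars false

namespace CF.PnSp

open Module CF.Loc Subgroup

variable {G F V : Type*} [Group G] [Field F] [AddCommGroup V] [Module F V] [DistribMulAction G V]
  [SMulCommClass G F V] {B : LinearMap.BilinForm F V}

theorem Sy.eq_zero_of_rank [FiniteDimensional F V] (h : Sy G B) {z y : G} {e f e' f' : V}
    (H : HP B z e f) (H' : HP B y e' f') (ho : Orth V z y) {Z : Submodule F V}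
    (hZ : finrank F Z ≤ 4) (h1 : e ∈ Z) (h2 : f ∈ Z) (h3 : e' ∈ Z) (h4 : f' ∈ Z) {u : V}
    (hu : u ∈ Z) (hz : z • u = u) (hy : y • u = u) : u = 0 := by
  by_contra h0
  have a1 := (H.plus_iff h).1 (ho _ (H'.minus_e h))
  have a2 := (H.plus_iff h).1 (ho _ (H'.minus_f h))
  have a3 := (H.plus_iff h).1 hz
  have a4 := (H'.plus_iff h).1 hy
  have : LinearIndependent F ![(⟨e, h1⟩ : Z), ⟨f, h2⟩, ⟨e', h3⟩, ⟨f', h4⟩, ⟨u, hu⟩] := by
    rw [Fintype.linearIndependent_iff]
    intro c hc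
    have hc' : c 0 • e + c 1 • f + c 2 • e' + c 3 • f' + c 4 • u = 0 := by
      simpa [Fin.sum_univ_five] using congrArg Subtype.val hc
    have b0 := congrArg (B · f) hc'
    have b1 := congrArg (B · e) hc'
    have b2 := congrArg (B · f') hc'
    have b3 := congrArg (B · e') hc'
    simp [h.alt, H.1, H'.1, H.fe h, H'.fe h, a1.1, a1.2, a2.1, a2.2, a3.1, a3.2, a4.1, a4.2,
      h.isRefl _ _ a1.1, h.isRefl _ _ a1.2, h.isRefl _ _ a2.1, h.isRefl _ _ a2.2] at b0 b1 b2 b3
    simp [b0, b1, b2, b3, h0] at hc'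
    intro i
    fin_cases i <;> assumption
  have := this.fintype_card_le_finrank
  simp only [Fintype.card_fin] at this
  omega

theorem Sy.mem_gam_of_rank [FiniteDimensional F V] (h : Sy G B) {z y w : G} (hz : PI B z)
    (hy : PI B y) (hw : w * w = 1) (ho : Orth V z y) {Z : Submodule F V} (hZ : finrank F Z ≤ 4)
    (h1 : ∀ v, z • v - v ∈ Z) (h2 : ∀ v, y • v - v ∈ Z) (h3 : ∀ v, w • v - v ∈ Z) :
    w ∈ Gam V (z * y) := by
  have key : ∀ x : G, (∀ v, x • v - v ∈ Z) → ∀ m : V, x • m = -m → m ∈ Z := by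
    intro x hx m hm
    have := Z.smul_mem (-(2 : F)⁻¹) (hx m)
    rwa [hm, show -m - m = (-2 : F) • m by module, smul_smul, neg_mul_neg, inv_mul_cancel₀ h.two,
      one_smul] at this
  intro v hv
  rw [h.plus_mul_iff (hz.sq h) (hy.sq h) ho] at hv
  refine h.plus_of_orth hw fun m hm => ?_
  obtain ⟨u, m1, hu, hm1, rfl⟩ := h.dec (hz.sq h) m
  obtain ⟨u, m2, hu', hm2, rfl⟩ := h.dec (hy.sq h) u
  obtain ⟨e, f, H⟩ := hz
  obtain ⟨e', f', H'⟩ := hy
  have : u = 0 := by
    refine h.eq_zero_of_rank H H' ho hZ (key _ h1 _ (H.minus_e h)) (key _ h1 _ (H.minus_f h))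
      (key _ h2 _ (H'.minus_e h)) (key _ h2 _ (H'.minus_f h)) ?_ ?_ hu'
    · have := sub_mem (sub_mem (key _ h3 _ hm) (key _ h1 _ hm1)) (key _ h2 _ hm2)
      simpa using this
    · rw [smul_add, ho _ hm2] at hu
      exact add_right_cancel hu
  rw [this, zero_add, map_add, h.pm hv.1 hm1, h.pm hv.2 hm2, add_zero]

theorem Sy.unip (h : Sy G B) {p : ℕ} [Fact p.Prime] [CharP F p] {z w : G} {e f e' f' : V}
    (H : HP B z e f) (H' : HP B w e' f') {k : ℕ} (hk : (w * z) ^ p ^ k = 1) :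
    B e e' * B f f' - B e f' * B f e' = 1 := by
  haveI : Nontrivial V := ⟨e, 0, H.e_ne⟩
  haveI : CharP (Module.End F V) p := charP_of_injective_algebraMap (algebraMap F _).injective p
  set y := w * z
  have h1 : (rho G F V y - 1) ^ p ^ k = 0 := by
    rw [sub_pow_char_pow_of_commute _ _ (Commute.one_right _), ← map_pow, hk, map_one, one_pow,
      sub_self]
  have hc : Commute (rho G F V y⁻¹) ((rho G F V y - 1) ^ 2) :=
    (((Commute.refl y).inv_left.map _).sub_right (Commute.one_right _)).pow_right 2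
  have h2 : (rho G F V y⁻¹ * (rho G F V y - 1) ^ 2) ^ p ^ k = 0 := by
    rw [hc.mul_pow, ← pow_mul, mul_comm 2, pow_mul, h1]
    simp
  have h3 : (rho G F V y⁻¹ * (rho G F V y - 1) ^ 2 : Module.End F V) e =
      (4 * (B e e' * B f f' - B e f' * B f e' - 1)) • e := by
    have e1 : y⁻¹ • e = z • w • e := by
      rw [mul_inv_rev, inv_eq_of_mul_eq_one_left (H.sq h), inv_eq_of_mul_eq_one_left (H'.sq h),
        mul_smul]
    have e2 : y • e = -(w • e) := by rw [mul_smul, H.minus_e h, smul_neg]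
    simp only [sq, Module.End.mul_apply, LinearMap.sub_apply, rho_apply, Module.End.one_apply,
      smul_sub, inv_smul_smul]
    rw [e1, e2, H.2, H'.2]
    simp only [map_sub, map_smul, LinearMap.sub_apply, LinearMap.smul_apply, smul_eq_mul, h.alt,
      H.1, h.skew e' e, h.skew f' e, h.skew e' f, h.skew f' f]
    module
  have h4 := (show Module.End.HasEigenvector _ _ e from
    ⟨Module.End.mem_eigenspace_iff.2 h3, H.e_ne⟩).pow_apply (p ^ k)
  rw [h2, LinearMap.zero_apply, eq_comm, smul_eq_zero] at h4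
  have h5 := pow_eq_zero_iff (pow_ne_zero k (Fact.out : p.Prime).ne_zero) |>.1
    (h4.resolve_right H.e_ne)
  have h6 : (4 : F) ≠ 0 := by
    rw [show (4 : F) = 2 * 2 by norm_num]
    exact mul_ne_zero h.two h.two
  exact sub_eq_zero.1 ((mul_eq_zero.1 h5).resolve_left h6)

/-- The graph of `φ` over the plane of `z` is the plane of a conjugate of `z`. -/
def InG (z : G) (Z : Submodule F V) (φ : V →ₗ[F] V) : Prop :=
  (∀ v, φ v ∈ Z) ∧ ∃ k : G, ∀ a : V, z • a = -a → (k * z * k⁻¹) • (a + φ a) = -(a + φ a)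

/-- A totally isotropic subspace fixed by `z`. -/
def Iso (B : LinearMap.BilinForm F V) (z : G) (Z : Submodule F V) : Prop :=
  (∀ u ∈ Z, z • u = u) ∧ ∀ u ∈ Z, ∀ v ∈ Z, B u v = 0

namespace InG

variable {z : G} {Z : Submodule F V} {φ ψ : V →ₗ[F] V}

theorem zero : InG z Z (0 : V →ₗ[F] V) := ⟨fun _ => Z.zero_mem, 1, fun a ha => by simpa using ha⟩

theorem two_sub (h : Sy G B) (hz : PI B z) (hZ : Iso B z Z) (h1 : InG z Z φ) (h2 : InG z Z ψ) :
    InG z Z (φ + φ - ψ) := by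
  obtain ⟨m1, k, hk⟩ := h1
  obtain ⟨m2, l, hl⟩ := h2
  refine ⟨fun v => sub_mem (add_mem (m1 v) (m1 v)) (m2 v), k * z * k⁻¹ * l, fun a ha => ?_⟩
  obtain ⟨e, f, H⟩ := hz
  have H' : HP B (k * z * k⁻¹) (e + φ e) (f + φ f) :=
    PI.hp h ⟨_, _, H.conj h k⟩ (hk _ (H.minus_e h)) (hk _ (H.minus_f h)) (by
      simp [H.1, hZ.2 _ (m1 e) _ (m1 f), h.mp (H.minus_e h) (hZ.1 _ (m1 f)),
        h.pm (hZ.1 _ (m1 e)) (H.minus_f h)])
  have e1 : ∀ u ∈ Z, (k * z * k⁻¹) • u = u := fun u hu => (H'.plus_iff h).2 ⟨by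
    rw [map_add, h.pm (hZ.1 u hu) (H.minus_e h), hZ.2 u hu _ (m1 e), add_zero], by
    rw [map_add, h.pm (hZ.1 u hu) (H.minus_f h), hZ.2 u hu _ (m1 f), add_zero]⟩
  have e2 : (k * z * k⁻¹) • (a + ψ a) = -(a + (φ + φ - ψ) a) := by
    rw [show a + ψ a = (a + φ a) + (ψ a - φ a) by abel, smul_add, hk a ha,
      e1 _ (sub_mem (m2 a) (m1 a))]
    simp only [LinearMap.sub_apply, LinearMap.add_apply]
    abel
  have e3 := conj_minus (k * z * k⁻¹) (hl a ha)
  rw [e2, smul_neg, neg_inj] at e3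
  rw [← e3]
  congr 1
  group

theorem nsmul (h : Sy G B) (hz : PI B z) (hZ : Iso B z Z) (h1 : InG z Z φ) (n : ℕ) :
    InG z Z ((n : F) • φ) := by
  induction n using Nat.twoStepInduction with
  | zero => simpa using zero
  | one => simpa using h1
  | more n a b =>
    convert two_sub h hz hZ b a using 1
    push_cast
    module

theorem neg (h : Sy G B) (hz : PI B z) (hZ : Iso B z Z) (h1 : InG z Z φ) : InG z Z (-φ) := by
  simpa using two_sub h hz hZ zero h1

theorem add (h : Sy G B) {p : ℕ} [Fact p.Prime] [CharP F p] (hz : PI B z) (hZ : Iso B z Z)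
    (h1 : InG z Z φ) (h2 : InG z Z ψ) : InG z Z (φ + ψ) := by
  obtain ⟨m, hm⟩ : Odd p := (Fact.out : p.Prime).odd_of_ne_two fun e => h.two (by
    have := CharP.cast_eq_zero F p
    rw [e] at this
    exact_mod_cast this)
  have e : ((m + 1 : ℕ) : F) + (m + 1 : ℕ) = 1 := by
    have := CharP.cast_eq_zero F p
    rw [hm] at this
    push_cast at this ⊢
    linear_combination this
  convert two_sub h hz hZ (nsmul h hz hZ h1 (m + 1)) (neg h hz hZ h2) using 1
  rw [← add_smul, e, one_smul, sub_neg_eq_add]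

theorem comp (h : Sy G B) (hz : PI B z) (hZ : Iso B z Z) (h1 : InG z Z φ) {x : G}
    (hx : x ∈ Gam V z) : InG z Z (φ * rho G F V x) := by
  obtain ⟨m1, k, hk⟩ := h1
  refine ⟨fun v => m1 _, x⁻¹ * k, fun a ha => ?_⟩
  have := conj_minus x⁻¹ (hk _ (h.gam_minus (hz.sq h) hx ha))
  rw [smul_add x⁻¹, inv_smul_smul, (Gam V z).inv_mem hx _ (hZ.1 _ (m1 _))] at this
  rw [Module.End.mul_apply, rho_apply, ← this]
  congr 1
  group

end InG

theorem iso_span (h : Sy G B) {z : G} {s t : V} (hs : z • s = s) (ht : z • t = t)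
    (hst : B s t = 0) : Iso B z (Submodule.span F {s, t}) := by
  constructor
  · intro u hu
    obtain ⟨a, b, rfl⟩ := Submodule.mem_span_pair.1 hu
    rw [smul_add, sm, sm, hs, ht]
  · intro u hu v hv
    obtain ⟨a, b, rfl⟩ := Submodule.mem_span_pair.1 hu
    obtain ⟨c, d, rfl⟩ := Submodule.mem_span_pair.1 hv
    simp [h.alt, hst, h.isRefl _ _ hst]

theorem Sy.exists_graph (h : Sy G B) {p : ℕ} [Fact p.Prime] [CharP F p] {z a : G} (hz : PI B z)
    (ha : a * z ≠ z * a) {k : ℕ} (hk : (a * z * a⁻¹ * z) ^ p ^ k = 1) :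
    ∃ (Z : Submodule F V) (φ : V →ₗ[F] V), Iso B z Z ∧ InG z Z φ ∧ ∃ b, z • b = -b ∧ φ b ≠ 0 := by
  obtain ⟨e', f', H'⟩ := hz.conj h a
  obtain ⟨e, f, H⟩ := id hz
  have hd := h.unip H H' hk
  set s := B e f' • e' - B e e' • f' - e with hs
  set t := B f f' • e' - B f e' • f' - f with ht
  have h1 : z • s = s := by
    rw [H.plus_iff h, hs]
    simp only [map_sub, map_smul, LinearMap.sub_apply, LinearMap.smul_apply, smul_eq_mul, h.alt,
      H.1, h.skew e' e, h.skew f' e, h.skew e' f, h.skew f' f]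
    exact ⟨by ring, by linear_combination hd⟩
  have h2 : z • t = t := by
    rw [H.plus_iff h, ht]
    simp only [map_sub, map_smul, LinearMap.sub_apply, LinearMap.smul_apply, smul_eq_mul, h.alt,
      H.fe h, h.skew e' e, h.skew f' e, h.skew e' f, h.skew f' f]
    exact ⟨by linear_combination -hd, by ring⟩
  have h3 : B s t = 0 := by
    rw [hs, ht]
    simp only [map_sub, map_smul, LinearMap.sub_apply, LinearMap.smul_apply, smul_eq_mul, h.alt,
      H.1, H'.1, H'.fe h, h.skew e' e, h.skew f' e, h.skew e' f, h.skew f' f]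
    linear_combination -hd
  let φ : V →ₗ[F] V := (B.flip f).smulRight s - (B.flip e).smulRight t
  have hφ : ∀ v, φ v = B v f • s - B v e • t := fun v => rfl
  have h4 : ∀ b, z • b = -b → (a * z * a⁻¹) • (b + φ b) = -(b + φ b) := by
    intro b hb
    rw [H.minus_iff h] at hb
    have : b + φ b = (B b f * B e f' - B b e * B f f') • e' -
        (B b f * B e e' - B b e * B f e') • f' := by
      rw [hφ, hs, ht]
      nth_rewrite 1 [hb]
      module
    rw [this, H'.minus_pr h]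
  refine ⟨_, φ, iso_span h h1 h2 h3, ⟨fun v => sub_mem
    (Submodule.smul_mem _ _ (Submodule.subset_span (by simp)))
    (Submodule.smul_mem _ _ (Submodule.subset_span (by simp))), a, h4⟩, ?_⟩
  by_contra! hc
  refine ha (mul_inv_eq_iff_eq_mul.1 (hz.eq_of_le h (hz.conj h a) fun v hv => ?_).symm)
  have := h4 v hv
  rwa [hc v hv, add_zero] at this

theorem QD.rank_one (h : Sy G B) {p : ℕ} [Fact p.Prime] [CharP F p] {z i j : G} {T : Subgroup G}
    (Q : QD B z T i j) {Z : Submodule F V} {φ : V →ₗ[F] V} (hZ : Iso B z Z) (hφ : InG z Z φ)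
    (hb : ∃ b, z • b = -b ∧ φ b ≠ 0) : ∃ ψ : V →ₗ[F] V, InG z Z ψ ∧ (∃ b, z • b = -b ∧ ψ b ≠ 0) ∧
      ∃ v, z • v = -v ∧ v ≠ 0 ∧ ψ v = 0 := by
  by_cases hc : ∃ v, z • v = -v ∧ v ≠ 0 ∧ φ v = 0
  · exact ⟨φ, hφ, hb, hc⟩
  haveI : NeZero p := ⟨(Fact.out : p.Prime).ne_zero⟩
  obtain ⟨α, β, hαβ⟩ := CharP.sq_add_sq F p (-1)
  push_cast at hαβ
  have hm : ∀ (s t : F) (v : V), z • v = -v → z • (v + s • i • v + t • j • v) =
      -(v + s • i • v + t • j • v) := fun s t v hv => by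
    rw [smul_add, smul_add, sm, sm, hv, Q.mi h hv, Q.mj h hv, smul_neg, smul_neg]
    abel
  have hk : ∀ (s t : F) (v : V), z • v = -v → i • j • v + s • i • i • j • v + t • j • i • j • v =
      i • j • (v + (-s) • i • v + (-t) • j • v) := fun s t v hv => by
    simp only [smul_add, sm, smul_neg, neg_smul, Q.iiv (Q.mj h hv), Q.jiv h (Q.mj h hv), Q.jjv hv,
      Q.jiv h hv, neg_neg]
  obtain ⟨v, hv, h0⟩ : ∃ v : V, z • v = -v ∧ v + (-α : F) • i • v + (-β : F) • j • v ≠ 0 := by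
    by_contra! hcon
    obtain ⟨v, hv, h0⟩ := Q.pi.exists_ne h
    have e1 := hcon v hv
    have e2 := hcon _ (Q.mi h (Q.mj h hv))
    rw [hk _ _ v hv, smul_eq_zero_iff_eq, smul_eq_zero_iff_eq, neg_neg, neg_neg] at e2
    apply h0 (h.two_smul_eq_zero _)
    generalize i • v = x at e1 e2
    generalize j • v = y at e1 e2
    linear_combination (norm := module) e1 + e2
  have hψ : ∀ v, (φ + (α : F) • (φ * rho G F V i) + (β : F) • (φ * rho G F V j)) v =
      φ (v + (α : F) • i • v + (β : F) • j • v) := fun v => by simp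
  refine ⟨_, InG.add h Q.pi hZ (InG.add h Q.pi hZ hφ ((hφ.comp h Q.pi hZ (Q.le Q.hi)).nsmul h Q.pi
    hZ α)) ((hφ.comp h Q.pi hZ (Q.le Q.hj)).nsmul h Q.pi hZ β), ⟨i • j • v, Q.mi h (Q.mj h hv), ?_⟩,
    _, hm _ _ v hv, h0, ?_⟩
  · rw [hψ]
    refine fun e => hc ⟨_, hm _ _ _ (Q.mi h (Q.mj h hv)), ?_, e⟩
    rw [hk _ _ v hv]
    simpa only [ne_eq, smul_eq_zero_iff_eq] using h0
  · rw [hψ]
    simp only [smul_add, sm, smul_neg, neg_smul, Q.iiv hv, Q.jjv hv, Q.jiv h hv, neg_neg]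
    generalize i • j • v = w
    generalize i • v = x
    generalize j • v = y
    rw [← map_zero φ]
    congr 1
    linear_combination (norm := module) hαβ • v

theorem Sy.comm_all [Finite G] [Finite V] [FiniteDimensional F V] (h : Sy G B) {p : ℕ}
    [Fact p.Prime] [CharP F p] {z i j : G} {T : Subgroup G} (Q : QD B z T i j) (nb : NB z)
    (hfr : ∀ v : V, v ≠ 0 → z • v = v → ∃ k : G, Orth V z (k * z * k⁻¹) ∧ (k * z * k⁻¹) • v ≠ v)
    (g : G) : z * (g * z * g⁻¹) = g * z * g⁻¹ * z := by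
  by_contra hne
  have hz := Q.pi.sq h
  have hzi := Q.pi.inv_eq h
  have hw := Q.pi.conj h g
  let L : Subgroup G :=
    { carrier := {x | ∀ v : V, z • v = v → (g * z * g⁻¹) • v = v → x • v = v}
      one_mem' := fun v _ _ => one_smul G v
      mul_mem' := fun {a b} ha hb v h1 h2 => by rw [mul_smul, hb v h1 h2, ha v h1 h2]
      inv_mem' := fun {a} ha v h1 h2 => by rw [inv_smul_eq_iff, ha v h1 h2] }
  have hL : Gam V z ≤ L := fun x hx v h1 _ => hx v h1
  have hwL : g * z * g⁻¹ ∈ L := fun v _ h2 => h2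
  have hzL := hL (self_mem_Gam z)
  obtain ⟨Z, hZ, hZ'⟩ := h.rank Q.pi hw
  obtain ⟨N, -, h2, h3, h4, h5⟩ := zstar_sub (C := ⊥) bot_le (by rw [centralizer_bot]; exact le_top)
    hzL hz (Q.pi.ne_one h) fun l hl e => by
      rw [mem_bot, mul_inv_eq_one, mul_inv_eq_iff_eq_mul] at e
      rcases Q.pi.eq_or_orth h (Q.pi.conj h l) e with e1 | e1
      · rw [← e1, inv_mul_cancel]
        exact one_mem _
      · rcases h.p2 Q nb e1 (h.mem_gam_of_rank Q.pi (Q.pi.conj h l) (hw.sq h) e1 hZ (hZ' _ hzL)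
          (hZ' _ (mul_mem (mul_mem hl hzL) (inv_mem hl))) (hZ' _ hwL)) with e2 | e2
        · exact absurd (by rw [e2]) hne
        · exact absurd (by rw [e2, e]) hne
  obtain ⟨P, -, hP, hTP, a, ha, haz⟩ := h.zs hz (Q.le Q.hi) Q.ii Q.pg Q.hi
    ((Q.le.trans hL).trans h3) bot_le (by rw [centralizer_bot]; exact le_top)
    (fun c hc => by rw [mem_bot.1 hc, one_mul, mul_one]) h4 hZ (fun n hn => hZ' n (h2 hn))
    ⟨_, h5 _ hwL, fun e => hne (by
      have hy := hw.sq h
      have hyi := hw.inv_eq h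
      rw [hzi, hyi] at e
      have := nb g
      generalize g * z * g⁻¹ = y at *
      have := this (by
        calc (z * y) ^ 4 = z * y * (z * y * z * y * z) * y := by simp only [pow_succ]; group
          _ = z * y * (z * z) * y * z * y * y := by rw [e]; group
          _ = z * (y * y) * z * (y * y) := by rw [hz]; group
          _ = 1 := by rw [hy, mul_one, mul_one, hz])
      rwa [sq, mul_eq_one_iff_eq_inv, mul_inv_rev, hzi, hyi] at this)⟩
  obtain ⟨k, hk⟩ := isPGroup_iff_forall.1 hP _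
    (mul_mem ha (conj_mem_of_mem_normalizer (hTP Q.zmem) (inv_mem ha)))
  obtain ⟨Z1, φ, hZ1, hφ, hb⟩ := h.exists_graph Q.pi haz (k := k) (by
    rw [← hk, hzi]; congr 1; group)
  obtain ⟨ψ, ⟨m1, l, hl⟩, ⟨b, hb, hb0⟩, v, hv, h0, hv0⟩ := Q.rank_one h hZ1 hφ hb
  obtain ⟨f, H⟩ := Q.pi.exists_hp h hv h0
  have e1 : ∀ b, z • b = -b → ψ b = -B b v • ψ f := fun b hb => by
    nth_rewrite 1 [(H.minus_iff h).1 hb]
    simp [hv0]
  have hu0 : ψ f ≠ 0 := fun e => hb0 (by rw [e1 b hb, e, smul_zero])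
  have hu := hZ1.1 _ (m1 f)
  generalize ψ f = u at *
  obtain ⟨k, ho, hk⟩ := hfr u hu0 hu
  have hy := Q.pi.conj h k
  have ho' := h.orth_symm (hy.sq h) ho
  have hI := iso_span h hu (plus_of_comm (h.orth_comm hz (hy.sq h) ho).symm hu) (by
    have := h.inv' (k * z * k⁻¹) u u
    rw [hy.inv_eq h, h.skew] at this
    have e : (2 : F) * B u ((k * z * k⁻¹) • u) = 0 := by linear_combination -this
    exact (mul_eq_zero.1 e).resolve_left h.two)
  let χ : V →ₗ[F] V := (-B.flip v).smulRight u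
  have hχ : ∀ b, χ b = -B b v • u := fun b => rfl
  have i1 : InG z (Submodule.span F {u, (k * z * k⁻¹) • u}) χ :=
    ⟨fun b => Submodule.smul_mem _ _ (Submodule.subset_span (by simp)), l, fun b hb => by
      rw [hχ, ← e1 b hb, hl b hb]⟩
  have i2 : InG z (Submodule.span F {u, (k * z * k⁻¹) • u}) (rho G F V (k * z * k⁻¹) * χ) := by
    refine ⟨fun b => ?_, k * z * k⁻¹ * l, fun b hb => ?_⟩
    · rw [Module.End.mul_apply, rho_apply, hχ, sm]
      exact Submodule.smul_mem _ _ (Submodule.subset_span (by simp))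
    · have := conj_minus (k * z * k⁻¹) (hl b hb)
      rw [smul_add (k * z * k⁻¹) b, ho' b hb, e1 b hb] at this
      rw [Module.End.mul_apply, rho_apply, hχ, ← this]
      congr 1
      group
  obtain ⟨-, r, hr⟩ := InG.add h Q.pi hI i1 (i2.neg h Q.pi hI)
  have r1 := hr v hv
  have r2 := hr f (H.minus_f h)
  simp only [LinearMap.add_apply, LinearMap.neg_apply, Module.End.mul_apply, rho_apply, hχ, h.alt,
    H.fe h, neg_zero, zero_smul, smul_zero, add_zero, neg_neg, one_smul] at r1 r2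
  have hm : (k * z * k⁻¹) • (u + -((k * z * k⁻¹) • u)) = -(u + -((k * z * k⁻¹) • u)) := by
    rw [smul_add, smul_neg, ← mul_smul _ _ u, hy.sq h, one_smul]
    abel
  have H' := (Q.pi.conj h r).hp h r1 r2 (by rw [map_add, H.1, h.mp hv (ho _ hm), add_zero])
  rcases h.p2 Q nb ho (g := r) (fun x hx => by
    rw [h.plus_mul_iff hz (hy.sq h) ho] at hx
    rw [H'.plus_iff h, map_add, h.pm hx.1 hv, h.pm hx.1 (H.minus_f h), h.pm hx.2 hm, add_zero]
    exact ⟨rfl, rfl⟩) with e | e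
  · rw [e, smul_add z f, H.minus_f h, ho _ hm, neg_add, add_right_inj] at r2
    have := h.eq_zero_of_mp (c := (1 : G)) ((one_smul G _).trans r2) (one_smul G _)
    exact hk (add_neg_eq_zero.1 this).symm
  · rw [e] at r1
    exact h0 (h.eq_zero_of_mp r1 (ho' v hv))

end CF.PnSp
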