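import Cfsg.Agent.Known.Pn.Basic
import Cfsg.Agent.Loc.Syl

/-!
Odd order `p'`-subgroups moving only a `4`-space.
-/

set_option autoImplicit false
set_option linter.unusedSectionVars false

namespace CF.PnSp

open Module TensorProduct CF.Loc Subgroup

section eig

variable {G K W : Type*} [Group G] [Field K] [AddCommGroup W] [Module K W] [FiniteDimensional K W]
  (φ : G →* Module.End K W)

theorem eig_pow {a b c : G} (hc : a * b = c * (b * a)) (ha : a * c = c * a) (hb : b * c = c * b)
    (ζ : K) : ζ ^ finrank K ((φ c).eigenspace ζ) = 1 := by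
  set X := (φ c).eigenspace ζ
  have hm : ∀ g : G, g * c = c * g → ∀ x ∈ X, φ g x ∈ X := by
    intro g hg x hx
    rw [Module.End.mem_eigenspace_iff] at hx ⊢
    rw [← Module.End.mul_apply, ← map_mul, ← hg, map_mul, Module.End.mul_apply, hx, map_smul]
  have hd : ∀ (g : G) (hg : g * c = c * g), LinearMap.det ((φ g).restrict (hm g hg)) ≠ 0 := by
    intro g hg
    have hg' : g⁻¹ * c = c * g⁻¹ := by
      rw [inv_mul_eq_iff_eq_mul, ← mul_assoc, hg, mul_inv_cancel_right]
    have : (φ g).restrict (hm g hg) * (φ g⁻¹).restrict (hm _ hg') = 1 := by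
      ext x
      change φ g (φ g⁻¹ x) = x
      rw [← Module.End.mul_apply, ← map_mul, mul_inv_cancel, map_one, Module.End.one_apply]
    have h2 := congrArg LinearMap.det this
    rw [map_mul, map_one] at h2
    exact left_ne_zero_of_mul_eq_one h2
  have h1 : (φ a).restrict (hm a ha) * (φ b).restrict (hm b hb) =
      ζ • ((φ b).restrict (hm b hb) * (φ a).restrict (hm a ha)) := by
    ext x
    have := hm b hb _ (hm a ha x x.2)
    rw [Module.End.mem_eigenspace_iff] at this
    simp only [Module.End.mul_apply, LinearMap.coe_restrict_apply, LinearMap.smul_apply,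
      Submodule.coe_smul]
    rw [← this, ← Module.End.mul_apply, ← map_mul, hc, map_mul, map_mul]
    rfl
  have h2 := congrArg LinearMap.det h1
  rw [LinearMap.det_smul, map_mul, map_mul, mul_comm (LinearMap.det _)] at h2
  exact (mul_left_eq_self₀.1 h2.symm).resolve_right (mul_ne_zero (hd b hb) (hd a ha))

theorem three_le_of_pow {ζ : K} {m n : ℕ} (hm : Odd m) (h1 : ζ ^ m = 1) (h2 : ζ ^ n = 1)
    (h3 : ζ ≠ 1) (h4 : 0 < n) : 3 ≤ n := by
  by_contra hlt
  obtain rfl | rfl : n = 1 ∨ n = 2 := by omega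
  · exact h3 (by simpa using h2)
  · obtain ⟨k, rfl⟩ := hm
    rw [pow_succ, pow_mul, h2, one_pow, one_mul] at h1
    exact h3 h1

theorem exists_eig [IsAlgClosed K] {C : Module.End K W} {m : ℕ} (hm : (m : K) ≠ 0)
    (h1 : C ^ m = 1) (h2 : C ≠ 1) : ∃ ζ : K, ζ ≠ 1 ∧ ζ ^ m = 1 ∧ C.HasEigenvalue ζ := by
  set X := LinearMap.range (C - 1)
  have hX : ∀ x ∈ X, C x ∈ X := by
    rintro _ ⟨y, rfl⟩
    exact ⟨C y, by simp⟩
  haveI : Nontrivial X := by
    rw [Submodule.nontrivial_iff_ne_bot]
    intro h0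
    exact h2 (sub_eq_zero.1 (LinearMap.range_eq_bot.1 h0))
  obtain ⟨ζ, hζ⟩ := Module.End.exists_eigenvalue (C.restrict hX)
  obtain ⟨⟨x, y, rfl⟩, hx⟩ := hζ.exists_hasEigenvector
  have h3 : C ((C - 1) y) = ζ • (C - 1) y := congrArg Subtype.val hx.apply_eq_smul
  have h4 : (C - 1) y ≠ 0 := fun h => hx.2 (Subtype.ext h)
  have h5 : C.HasEigenvector ζ ((C - 1) y) := ⟨Module.End.mem_eigenspace_iff.2 h3, h4⟩
  refine ⟨ζ, ?_, ?_, Module.End.hasEigenvalue_of_hasEigenvector h5⟩
  · rintro rfl
    have h6 : (∑ i ∈ Finset.range m, C ^ i) ((C - 1) y) = 0 := by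
      rw [← Module.End.mul_apply, geom_sum_mul, h1, sub_self, LinearMap.zero_apply]
    rw [LinearMap.sum_apply, Finset.sum_congr rfl fun i _ => h5.pow_apply i] at h6
    simp only [one_pow, one_smul, Finset.sum_const, Finset.card_range] at h6
    rw [← Nat.cast_smul_eq_nsmul K, smul_eq_zero] at h6
    exact h6.elim hm h4
  · have := h5.pow_apply m
    rw [h1, Module.End.one_apply] at this
    exact smul_left_injective K h4 (by simpa using this.symm)

end eig

variable {G F V : Type*} [Group G] [Field F] [AddCommGroup V] [Module F V] [DistribMulAction G V]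
  [SMulCommClass G F V] {B : LinearMap.BilinForm F V}

variable (G F V) in
/-- The representation. -/
def rho : G →* Module.End F V := DistribMulAction.toModuleEnd F V

@[simp] theorem rho_apply (g : G) (v : V) : rho G F V g v = g • v := rfl

theorem Sy.isRefl (h : Sy G B) : B.IsRefl := fun u v H => by rw [h.skew, H, neg_zero]

theorem Sy.nondeg (h : Sy G B) : B.Nondegenerate :=
  ⟨h.nd, fun v H => h.nd v fun w => h.isRefl _ _ (H w)⟩

theorem Sy.charpoly_inv [FiniteDimensional F V] (h : Sy G B) (c : G) :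
    (rho G F V c⁻¹).charpoly = (rho G F V c).charpoly := by
  classical
  have h1 : (B.toDual h.nondeg).conj (rho G F V c⁻¹) = Module.Dual.transpose (rho G F V c) := by
    ext ψ w
    obtain ⟨v, rfl⟩ := (B.toDual h.nondeg).surjective ψ
    simp [LinearEquiv.conj_apply, LinearMap.BilinForm.toDual_def, Module.Dual.transpose_apply,
      h.inv']
  rw [← (B.toDual h.nondeg).charpoly_conj, h1,
    ← LinearMap.charpoly_toMatrix _ (Module.finBasis F V).dualBasis, LinearMap.toMatrix_transpose,
    Matrix.charpoly_transpose, LinearMap.charpoly_toMatrix]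

theorem Sy.comm_eq_one [FiniteDimensional F V] (h : Sy G B) {a b c : G}
    (hc : a * b = c * (b * a)) (ha : a * c = c * a) (hb : b * c = c * b) {m : ℕ} (hm : Odd m)
    (hm' : (m : F) ≠ 0) (h1 : c ^ m = 1) {Z : Submodule F V} (hZ : finrank F Z ≤ 4)
    (hcZ : ∀ v, c • v - v ∈ Z) : c = 1 := by
  by_contra hne
  let K := AlgebraicClosure F
  let φ : G →* Module.End K (K ⊗[F] V) :=
    (Module.End.baseChangeHom F K V).toMonoidHom.comp (rho G F V)
  have hφ : ∀ g, φ g = (rho G F V g).baseChange K := fun g => rfl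
  have h2 : φ c ≠ 1 := by
    intro h2
    refine hne (h.faith c fun v => ?_)
    have := LinearMap.congr_fun h2 ((1 : K) ⊗ₜ v)
    rw [hφ, LinearMap.baseChange_tmul, Module.End.one_apply, ← sub_eq_zero, ← tmul_sub] at this
    exact sub_eq_zero.1 ((Module.FaithfullyFlat.one_tmul_eq_zero_iff F V _).1 this)
  obtain ⟨ζ, h3, h4, h5⟩ := exists_eig (m := m)
    (by rw [← map_natCast (algebraMap F K)]; exact (map_ne_zero _).2 hm')
    (by rw [← map_pow, h1, map_one]) h2
  have h0 : ζ ≠ 0 := by
    rintro rfl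
    rw [zero_pow hm.pos.ne'] at h4
    exact zero_ne_one h4
  have h6 : (φ c).HasEigenvalue ζ⁻¹ := by
    rw [Module.End.hasEigenvalue_iff_isRoot_charpoly, hφ, LinearMap.charpoly_baseChange,
      ← h.charpoly_inv, ← LinearMap.charpoly_baseChange, ← hφ,
      ← Module.End.hasEigenvalue_iff_isRoot_charpoly] at h5
    obtain ⟨x, hx⟩ := h5.exists_hasEigenvector
    refine Module.End.hasEigenvalue_of_hasEigenvector (x := x)
      ⟨Module.End.mem_eigenspace_iff.2 ?_, hx.2⟩
    have := congrArg (φ c) hx.apply_eq_smul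
    rw [← Module.End.mul_apply, ← map_mul, mul_inv_cancel, map_one, Module.End.one_apply,
      map_smul] at this
    rw [eq_inv_smul_iff₀ h0, ← this]
  have h7 : ∀ ξ : K, ξ ≠ 1 → ξ ^ m = 1 → (φ c).HasEigenvalue ξ →
      3 ≤ finrank K ((φ c).eigenspace ξ) := fun ξ e1 e2 e3 =>
    three_le_of_pow hm e2 (eig_pow φ hc ha hb ξ) e1
      (Nat.pos_of_ne_zero fun e4 => e3 (Submodule.finrank_eq_zero.1 e4))
  have h8 : ∀ ξ : K, ξ ≠ 1 → (φ c).eigenspace ξ ≤ LinearMap.range (Z.subtype.baseChange K) := by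
    intro ξ e1 x hx
    rw [Module.End.mem_eigenspace_iff] at hx
    have e2 : ∀ y, φ c y - y ∈ LinearMap.range (Z.subtype.baseChange K) := by
      intro y
      induction y with
      | zero => simp
      | tmul k v =>
        refine ⟨k ⊗ₜ ⟨_, hcZ v⟩, ?_⟩
        simp [hφ, tmul_sub]
      | add y y' hy hy' =>
        rw [map_add, add_sub_add_comm]
        exact add_mem hy hy'
    have e3 := Submodule.smul_mem _ (ξ - 1)⁻¹ (e2 x)
    rw [hx, show ξ • x - x = (ξ - 1) • x from
      ((sub_smul ξ 1 x).trans (by rw [one_smul])).symm, smul_smul,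
      inv_mul_cancel₀ (sub_ne_zero.2 e1), one_smul] at e3
    exact e3
  have h9 : ζ⁻¹ ≠ 1 := fun e => h3 (inv_eq_one.1 e)
  have h10 : ζ ≠ ζ⁻¹ := by
    intro e
    have := three_le_of_pow (n := 2) hm h4 (by rw [sq]; nth_rewrite 1 [e]; exact inv_mul_cancel₀ h0)
      h3 two_pos
    omega
  have h11 := Submodule.finrank_sup_add_finrank_inf_eq ((φ c).eigenspace ζ) ((φ c).eigenspace ζ⁻¹)
  rw [((φ c).eigenspaces_iSupIndep.pairwiseDisjoint h10).eq_bot, finrank_bot] at h11
  have h12 := Submodule.finrank_mono (sup_le (h8 _ h3) (h8 _ h9))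
  have h13 := LinearMap.finrank_range_le (Z.subtype.baseChange K)
  rw [Module.finrank_baseChange] at h13
  have := h7 _ h3 h4 h5
  have := h7 _ h9 (by rw [inv_pow, h4, inv_one]) h6
  omega

end CF.PnSp
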