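import Cfsg.Agent.Known.Pn.Odd

/-!
Odd order subgroups normalised by an element of order four of a plane group.
-/

set_option autoImplicit false
set_option linter.unusedSectionVars false

namespace CF.PnSp

open Module CF.Loc Subgroup

theorem exists_comm_center {P : Type*} [Group P] [Finite P] {r : ℕ} [Fact r.Prime]
    (h : IsPGroup r P) {a b : P} (hn : a * b ≠ b * a) :
    ∃ a b c : P, a * b = c * (b * a) ∧ c ∈ center P ∧ c ≠ 1 := by
  have : Nontrivial (P ⧸ center P) := ⟨QuotientGroup.mk a, 1, fun e =>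
    hn (mem_center_iff.1 ((QuotientGroup.eq_one_iff a).1 e) b).symm⟩
  have := (h.to_quotient (center P)).center_nontrivial
  obtain ⟨⟨w, hw⟩, h1⟩ := exists_ne (1 : center (P ⧸ center P))
  obtain ⟨z, rfl⟩ := QuotientGroup.mk_surjective w
  have h2 : z ∉ center P := fun hz => h1 (Subtype.ext ((QuotientGroup.eq_one_iff z).2 hz))
  rw [mem_center_iff, not_forall] at h2
  obtain ⟨t, ht⟩ := h2
  refine ⟨t, z, t * z * t⁻¹ * z⁻¹, by group, ?_, fun e => ht ?_⟩
  · rw [← QuotientGroup.eq_one_iff]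
    simp only [QuotientGroup.mk_mul, QuotientGroup.mk_inv]
    rw [mem_center_iff.1 hw (t : P ⧸ center P)]
    simp
  · rw [mul_inv_eq_one, mul_inv_eq_iff_eq_mul] at e
    exact e

theorem exists_inv_syl {G : Type*} [Group G] [Finite G] {T N C : Subgroup G} (hT : IsPGroup 2 T)
    (hTN : T ≤ 𝐍(N)) (hC' : N ≤ 𝐂(C)) (hodd : Odd (C.relIndex N)) (r : ℕ) [Fact r.Prime] :
    ∃ P, IsSyl r P N ∧ T ≤ 𝐍(P) := by
  let φ : T →* MulAut N := (N.normalizerMonoidHom).comp (inclusion hTN)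
  letI : MulAction T (Sylow r N) := MulAction.compHom _ φ
  have hc : ¬ 2 ∣ Nat.card (Sylow r N) := by
    obtain ⟨Q⟩ : Nonempty (Sylow r N) := inferInstance
    rw [Q.card_eq_index_normalizer]
    intro h2
    refine hodd.not_two_dvd_nat (h2.trans (index_dvd_of_le (H := C.subgroupOf N) ?_))
    intro c hc
    refine centralizer_le_normalizer _ fun q _ => Subtype.ext ?_
    exact (hC' q.2 c hc).symm
  obtain ⟨Q, hQ⟩ := hT.nonempty_fixed_point_of_prime_not_dvd_card (Sylow r N) hc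
  refine ⟨_, isSyl_map Q, fun t ht => mem_normalizer_of_conj_mem ?_⟩
  rintro _ ⟨q, hq, rfl⟩
  have h1 : φ ⟨t, ht⟩ • Q = Q := hQ ⟨t, ht⟩
  have h2 : φ ⟨t, ht⟩ q ∈ φ ⟨t, ht⟩ • Q := Subgroup.smul_mem_pointwise_smul _ _ _ hq
  rw [h1] at h2
  exact ⟨_, h2, rfl⟩

variable {G F V : Type*} [Group G] [Field F] [AddCommGroup V] [Module F V] [DistribMulAction G V]
  [SMulCommClass G F V] {B : LinearMap.BilinForm F V}

theorem Sy.quartic (h : Sy G B) {z x : G} (hz : z * z = 1) (hx : x ∈ Gam V z) (hx2 : x * x = z)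
    (v : V) : (x * z) • v - z • v + x • v - v = 0 := by
  obtain ⟨p, m, hp, hm, rfl⟩ := h.dec hz v
  simp only [mul_smul, smul_add, hp, hm, hx p hp, smul_neg]
  abel

theorem Sy.eq_one_of_fpf [Finite G] (h : Sy G B) {z x : G} (hz : z * z = 1) (hx : x ∈ Gam V z)
    (hx2 : x * x = z) {A : Subgroup G} (hA : ((Nat.card A : ℕ) : F) ≠ 0) (hn : x ∈ 𝐍(A))
    (hf : ∀ a ∈ A, a * z = z * a → a = 1) {a : G} (ha : a ∈ A) : a = 1 := by
  classical
  haveI := Fintype.ofFinite A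
  let N : V → V := fun u => ∑ a : A, (a : G) • u
  have key : ∀ y : G, y ∈ 𝐍(A) → (∀ a : G, a * y = y * a → a * z = z * a) → ∀ v,
      ∑ a : A, (a : G) • y • (a : G)⁻¹ • v = N (y • v) := by
    intro y hy hy' v
    let θ : A → A := fun a => ⟨a * (y * (a : G)⁻¹ * y⁻¹),
      A.mul_mem a.2 (conj_mem_of_mem_normalizer hy (A.inv_mem a.2))⟩
    have hθ : Function.Injective θ := by
      intro a b hab
      have e : (a : G) * (y * (a : G)⁻¹ * y⁻¹) = b * (y * (b : G)⁻¹ * y⁻¹) :=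
        congrArg Subtype.val hab
      have := hf _ (A.mul_mem (A.inv_mem b.2) a.2) (hy' _ (by
        calc (b : G)⁻¹ * a * y = (b : G)⁻¹ * (a * (y * (a : G)⁻¹ * y⁻¹)) * y * a := by group
          _ = y * ((b : G)⁻¹ * a) := by rw [e]; group))
      exact Subtype.ext (inv_mul_eq_one.1 this).symm
    refine Fintype.sum_bijective θ (Finite.injective_iff_bijective.1 hθ) _ _ fun a => ?_
    simp only [θ, ← mul_smul]
    congr 1
    group
  have hz' : z ∈ 𝐍(A) := hx2 ▸ mul_mem hn hn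
  have hxz : x * z = z * x := by rw [← hx2, mul_assoc]
  have h1 : ∀ v, N v = (Nat.card A : F) • v := by
    intro v
    have e0 : ∑ a : A, (a : G) • ((x * z) • (a : G)⁻¹ • v - z • (a : G)⁻¹ • v + x • (a : G)⁻¹ • v
        - (a : G)⁻¹ • v) = 0 := by
      simp only [h.quartic hz hx hx2, smul_zero, Finset.sum_const_zero]
    simp only [smul_sub, smul_add, Finset.sum_sub_distrib, Finset.sum_add_distrib, smul_inv_smul,
      Finset.sum_const, Finset.card_univ] at e0
    rw [key _ (mul_mem hn hz') (fun a ha => by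
        have : z = (x * z) * (x * z) := by
          rw [mul_assoc, ← mul_assoc z, ← hxz, mul_assoc x z z, hz, mul_one, hx2]
        rw [this, ← mul_assoc, ha, mul_assoc, ha, ← mul_assoc]),
      key _ hz' (fun a ha => ha),
      key _ hn (fun a ha => by rw [← hx2, ← mul_assoc, ha, mul_assoc, ha, ← mul_assoc])] at e0
    have e1 : N ((x * z) • v) - N (z • v) + N (x • v) - N v = 0 := by
      simp only [N, ← Finset.sum_sub_distrib, ← Finset.sum_add_distrib, ← smul_sub, ← smul_add,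
        h.quartic hz hx hx2, smul_zero, Finset.sum_const_zero]
    rw [Nat.cast_smul_eq_nsmul, Nat.card_eq_fintype_card]
    exact (sub_eq_zero.1 e1).symm.trans (sub_eq_zero.1 e0)
  refine h.faith a fun v => smul_right_injective V hA ?_
  change _ • _ = _ • _
  rw [← h1, ← h1]
  refine Fintype.sum_bijective (· * (⟨a, ha⟩ : A)) (Group.mulRight_bijective _) _ _ fun b => ?_
  simp [mul_smul]

theorem Sy.zs [Finite G] [FiniteDimensional F V] (h : Sy G B) {p : ℕ} [Fact p.Prime] [CharP F p]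
    {z x : G} (hz : z * z = 1) (hx : x ∈ Gam V z) (hx2 : x * x = z) {T N C : Subgroup G}
    (hT : IsPGroup 2 T) (hxT : x ∈ T) (hTN : T ≤ 𝐍(N)) (hC : C ≤ N) (hC' : N ≤ 𝐂(C))
    (hCz : ∀ c ∈ C, c * z = z * c) (hodd : Odd (C.relIndex N)) {Z : Submodule F V}
    (hZ : finrank F Z ≤ 4) (hN : ∀ n ∈ N, ∀ v, n • v - v ∈ Z) (hne : ∃ n ∈ N, n * z ≠ z * n) :
    ∃ P ≤ N, IsPGroup p P ∧ T ≤ 𝐍(P) ∧ ∃ g ∈ P, g * z ≠ z * g := by
  obtain ⟨r, hr, hdvd⟩ : ∃ r, r.Prime ∧ r ∣ (N ⊓ centralizer {z}).relIndex N := by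
    refine Nat.exists_prime_and_dvd fun e => ?_
    obtain ⟨n, hn, hne⟩ := hne
    exact hne (mem_centralizer_singleton_iff.1 (relIndex_eq_one.1 e hn).2)
  haveI := Fact.mk hr
  have hr2 : r ≠ 2 := by
    rintro rfl
    exact hodd.not_two_dvd_nat (hdvd.trans (relIndex_dvd_of_le_left _
      (le_inf hC fun c hc => mem_centralizer_singleton_iff.2 (hCz c hc))))
  obtain ⟨P, hP, hTP⟩ := exists_inv_syl hT hTN hC' hodd r
  obtain ⟨g, hg, hgz⟩ : ∃ g ∈ P, g * z ≠ z * g := by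
    by_contra! hcon
    exact hP.not_dvd_relIndex_of_le (le_inf hP.le fun c hc =>
      mem_centralizer_singleton_iff.2 (hcon c hc)) inf_le_left hdvd
  by_cases hrp : r = p
  · subst hrp
    exact ⟨P, hP.le, hP.isPGroup, hTP, g, hg, hgz⟩
  exfalso
  have hro : Odd r := hr.odd_of_ne_two hr2
  have hrF : ∀ k, ((r ^ k : ℕ) : F) ≠ 0 := fun k => by
    rw [Nat.cast_pow]
    refine pow_ne_zero _ fun e => hrp ?_
    rw [CharP.cast_eq_zero_iff F p] at e
    exact ((Nat.prime_dvd_prime_iff_eq Fact.out hr).1 e).symm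
  have hcomm : ∀ a ∈ P, ∀ b ∈ P, a * b = b * a := by
    intro a ha b hb
    by_contra hab
    obtain ⟨a, b, c, h1, h2, h3⟩ := exists_comm_center hP.isPGroup (a := ⟨a, ha⟩) (b := ⟨b, hb⟩)
      fun e => hab (congrArg Subtype.val e)
    obtain ⟨k, hk⟩ := hP.isPGroup c
    exact h3 (Subtype.ext (h.comm_eq_one (a := (a : G)) (b := (b : G)) (congrArg Subtype.val h1)
      (congrArg Subtype.val (mem_center_iff.1 h2 a)) (congrArg Subtype.val (mem_center_iff.1 h2 b))
      (hro.pow (n := k)) (hrF k) (congrArg Subtype.val hk) hZ (hN _ (hP.le c.2))))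
  have hzi : z⁻¹ = z := inv_eq_of_mul_eq_one_left hz
  have hxP := hTP hxT
  have hzP : z ∈ 𝐍(P) := hx2 ▸ mul_mem hxP hxP
  have hxz : x * z = z * x := by rw [← hx2, mul_assoc]
  let A : Subgroup G :=
    { carrier := {a | a ∈ P ∧ z * a * z⁻¹ = a⁻¹}
      one_mem' := ⟨one_mem _, by simp⟩
      mul_mem' := fun {a b} ha hb => ⟨mul_mem ha.1 hb.1, by
        rw [hcomm a ha.1 b hb.1, mul_inv_rev, ← ha.2, ← hb.2, hcomm b hb.1 a ha.1]; group⟩
      inv_mem' := fun {a} ha => ⟨inv_mem ha.1, by rw [← conj_inv, ha.2]⟩ }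
  have hAP : A ≤ P := fun a ha => ha.1
  obtain ⟨k, hk⟩ := IsPGroup.iff_card.1 (hP.isPGroup.to_le hAP)
  have := h.eq_one_of_fpf hz hx hx2 (A := A) (by rw [hk]; exact hrF k)
    (mem_normalizer_of_conj_mem fun a ha => ⟨conj_mem_of_mem_normalizer hxP ha.1, by
      rw [conj_inv, ← ha.2]
      calc z * (x * a * x⁻¹) * z⁻¹ = (z * x) * a * (z * x)⁻¹ := by group
        _ = x * (z * a * z⁻¹) * x⁻¹ := by rw [← hxz]; group⟩)
    (fun a ha haz => by
      have e1 : a⁻¹ = a := by rw [← ha.2, ← haz, mul_inv_cancel_right]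
      obtain ⟨k, hk⟩ := isPGroup_iff_forall.1 hP.isPGroup a ha.1
      obtain ⟨l, hl⟩ := hro.pow (n := k)
      have e2 : a ^ 2 = 1 := by rw [sq]; nth_rewrite 1 [← e1]; exact inv_mul_cancel a
      rwa [hl, pow_succ, pow_mul, e2, one_pow, one_mul] at hk)
    (a := g * (z * g⁻¹ * z⁻¹)) ⟨mul_mem hg (conj_mem_of_mem_normalizer hzP (inv_mem hg)), by
      rw [hzi]
      calc z * (g * (z * g⁻¹ * z)) * z = z * g * z * g⁻¹ * (z * z) := by group
        _ = (g * (z * g⁻¹ * z))⁻¹ := by rw [hz]; simp [mul_assoc, hzi]⟩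
  apply hgz
  calc g * z = g * (z * g⁻¹ * z⁻¹) * z * g := by group
    _ = z * g := by rw [this, one_mul]

end CF.PnSp
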