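import Cfsg.Agent.Known.Pn.Odd2
import Cfsg.Agent.Char.ZStarCor

/-!
Plane involutions inside the sum of two orthogonal planes.
-/

set_option autoImplicit false
set_option linter.unusedSectionVars false

namespace CF.PnSp

open Module CF.Loc Subgroup

theorem zstar_sub {G : Type*} [Group G] [Finite G] {L C : Subgroup G} (hCL : C ≤ L)
    (hc : L ≤ 𝐂(C)) {z : G} (hz : z ∈ L) (hz2 : z * z = 1) (hzC : z ∉ C)
    (hiso : ∀ l ∈ L, z * (l * z * l⁻¹) * z⁻¹ * (l * z * l⁻¹)⁻¹ ∈ C → z⁻¹ * (l * z * l⁻¹) ∈ C) :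
    ∃ N : Subgroup G, C ≤ N ∧ N ≤ L ∧ L ≤ 𝐍(N) ∧ Odd (C.relIndex N) ∧
      ∀ l ∈ L, z * l * z⁻¹ * l⁻¹ ∈ N := by
  haveI : (C.subgroupOf L).Normal :=
    (normal_subgroupOf_iff_le_normalizer hCL).2 (hc.trans (centralizer_le_normalizer _))
  let π := QuotientGroup.mk' (C.subgroupOf L)
  have hπ : ∀ x : L, π x = 1 ↔ (x : G) ∈ C := fun x => QuotientGroup.eq_one_iff x
  obtain ⟨N, hN, hodd, hz'⟩ := CF.Char.inZStar_of_isolated (u := π ⟨z, hz⟩) ⟨by
    refine orderOf_eq_prime ?_ fun e => hzC ((hπ _).1 e)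
    rw [← map_pow, hπ, sq]
    change z * z ∈ C
    exact hz2 ▸ C.one_mem, fun g hg => by
    obtain ⟨l, rfl⟩ : ∃ l, π l = g := QuotientGroup.mk'_surjective _ g
    have := hiso l l.2 ((hπ (⟨z, hz⟩ * (l * ⟨z, hz⟩ * l⁻¹) * ⟨z, hz⟩⁻¹ *
      (l * ⟨z, hz⟩ * l⁻¹)⁻¹)).1 (by
        simp only [map_mul, map_inv]
        rw [hg.eq]; group))
    have := (hπ (⟨z, hz⟩⁻¹ * (l * ⟨z, hz⟩ * l⁻¹))).2 this
    simp only [map_mul, map_inv] at this
    exact (inv_mul_eq_one.1 this).symm⟩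
  refine ⟨(N.comap π).map L.subtype, fun c hc => ⟨⟨c, hCL hc⟩, ?_, rfl⟩, map_subtype_le _,
    fun l hl => mem_normalizer_of_conj_mem ?_, ?_, fun l hl => ⟨⟨z, hz⟩ * ⟨l, hl⟩ * ⟨z, hz⟩⁻¹ *
      ⟨l, hl⟩⁻¹, hz' (π ⟨l, hl⟩), rfl⟩⟩
  · change π _ ∈ N
    rw [(hπ _).2 hc]
    exact N.one_mem
  · rintro _ ⟨n, hn, rfl⟩
    exact ⟨⟨l, hl⟩ * n * ⟨l, hl⟩⁻¹, (hN.comap π).conj_mem n hn _, rfl⟩
  · have e : C = π.ker.map L.subtype := by
      rw [QuotientGroup.ker_mk', map_subgroupOf_eq_of_le hCL]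
    have e2 := relIndex_map_map_of_injective π.ker (N.comap π) L.subtype_injective
    rw [← e, relIndex_ker, map_comap_eq_self_of_surjective (QuotientGroup.mk'_surjective _)] at e2
    rw [e2]
    exact hodd

variable {G F V : Type*} [Group G] [Field F] [AddCommGroup V] [Module F V] [DistribMulAction G V]
  [SMulCommClass G F V] {B : LinearMap.BilinForm F V}

theorem Sy.rank [FiniteDimensional F V] (h : Sy G B) {z w : G} (hz : PI B z) (hw : PI B w) :
    ∃ Z : Submodule F V, finrank F Z ≤ 4 ∧ ∀ x : G, (∀ v : V, z • v = v → w • v = v → x • v = v) →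
      ∀ v, x • v - v ∈ Z := by
  classical
  obtain ⟨e, f, H⟩ := hz
  obtain ⟨e', f', H'⟩ := hw
  refine ⟨Submodule.span F ({e, f, e', f'} : Finset V), (finrank_span_finset_le_card _).trans
    Finset.card_le_four, fun x hx v => ?_⟩
  rw [← LinearMap.BilinForm.orthogonal_orthogonal h.nondeg h.isRefl (Submodule.span F _)]
  intro u hu
  have h1 : ∀ y ∈ ({e, f, e', f'} : Finset V), B u y = 0 := fun y hy =>
    h.isRefl _ _ (hu y (Submodule.subset_span hy))
  have h2 := hx u ((H.plus_iff h).2 ⟨h1 _ (by simp), h1 _ (by simp)⟩)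
    ((H'.plus_iff h).2 ⟨h1 _ (by simp), h1 _ (by simp)⟩)
  change B u (x • v - v) = 0
  rw [map_sub]
  nth_rewrite 1 [← h2]
  rw [h.inv, sub_self]

/-- A plane involution with a quaternion subgroup in its plane group. -/
structure QD (B : LinearMap.BilinForm F V) (z : G) (T : Subgroup G) (i j : G) : Prop where
  pi : PI B z
  pg : IsPGroup 2 T
  le : T ≤ Gam V z
  hi : i ∈ T
  hj : j ∈ T
  ii : i * i = z
  jj : j * j = z
  ij : i * j = z * (j * i)

namespace QD

variable {z i j : G} {T : Subgroup G}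

theorem conj (h : Sy G B) (Q : QD B z T i j) (g : G) :
    QD B (g * z * g⁻¹) (cj[g] T) (g * i * g⁻¹) (g * j * g⁻¹) where
  pi := Q.pi.conj h g
  pg := isPGroup_cj g Q.pg
  le := cj_le_iff_forall.2 fun _ hx => conj_mem_Gam g (Q.le hx)
  hi := conj_mem_cj g Q.hi
  hj := conj_mem_cj g Q.hj
  ii := by rw [← Q.ii]; group
  jj := by rw [← Q.jj]; group
  ij := by
    calc _ = g * (i * j) * g⁻¹ := by group
      _ = _ := by rw [Q.ij]; group

theorem zmem (Q : QD B z T i j) : z ∈ T := Q.ii ▸ mul_mem Q.hi Q.hi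

theorem mi (h : Sy G B) (Q : QD B z T i j) {v : V} (hv : z • v = -v) : z • i • v = -(i • v) :=
  h.gam_minus (Q.pi.sq h) (Q.le Q.hi) hv

theorem mj (h : Sy G B) (Q : QD B z T i j) {v : V} (hv : z • v = -v) : z • j • v = -(j • v) :=
  h.gam_minus (Q.pi.sq h) (Q.le Q.hj) hv

theorem iiv (Q : QD B z T i j) {v : V} (hv : z • v = -v) : i • i • v = -v := by
  rw [← mul_smul, Q.ii, hv]

theorem jjv (Q : QD B z T i j) {v : V} (hv : z • v = -v) : j • j • v = -v := by
  rw [← mul_smul, Q.jj, hv]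

theorem jiv (h : Sy G B) (Q : QD B z T i j) {v : V} (hv : z • v = -v) :
    j • i • v = -(i • j • v) := by
  rw [← mul_smul i j, Q.ij, mul_smul, mul_smul, Q.mj h (Q.mi h hv), neg_neg]

theorem irr (h : Sy G B) (Q : QD B z T i j) {v : V} (hv : z • v = -v) (h0 : v ≠ 0) :
    B v (i • v) ≠ 0 ∨ B v (j • v) ≠ 0 := by
  by_contra! hc
  obtain ⟨u, H⟩ := Q.pi.exists_hp h hv h0
  have h1 := (H.minus_iff h).1 (Q.mi h hv)
  have h2 := (H.minus_iff h).1 (Q.mj h hv)
  rw [h.isRefl _ _ hc.1, zero_smul, sub_zero] at h1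
  rw [h.isRefl _ _ hc.2, zero_smul, sub_zero] at h2
  have h3 : j • i • v = i • j • v := by
    generalize B (i • v) u = a at h1
    generalize B (j • v) u = b at h2
    rw [h1, h2, sm, sm, h1, h2, smul_smul, smul_smul, mul_comm]
  have h4 : i • j • v = 0 := by
    apply h.two_smul_eq_zero
    rw [two_smul]
    nth_rewrite 1 [← h3]
    rw [Q.jiv h hv, neg_add_cancel]
  simp only [smul_eq_zero_iff_eq] at h4
  exact h0 h4

theorem comm_of_fix (h : Sy G B) (Q : QD B z T i j) {P : Subgroup G} (hP : T ≤ 𝐍(P)) {v : V}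
    (hv : z • v = -v) (h0 : v ≠ 0) (hf : ∀ a ∈ P, a • v = v) {a : G} (ha : a ∈ P) :
    a * z = z * a := by
  obtain ⟨t, ht, h1⟩ : ∃ t ∈ T, B v (t • v) ≠ 0 :=
    (Q.irr h hv h0).elim (fun e => ⟨i, Q.hi, e⟩) fun e => ⟨j, Q.hj, e⟩
  have h2 : a • t • v = t • v := by
    have := hf _ (conj_mem_of_mem_normalizer' (hP ht) ha)
    rwa [mul_smul, mul_smul, inv_smul_eq_iff] at this
  have H := Q.pi.hp h hv (v := (B v (t • v))⁻¹ • t • v)
    (by rw [sm, h.gam_minus (Q.pi.sq h) (Q.le ht) hv, smul_neg])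
    (by rw [map_smul, smul_eq_mul, inv_mul_cancel₀ h1])
  have H' := H.conj h a
  rw [sm, h2, hf a ha] at H'
  exact mul_inv_eq_iff_eq_mul.1 (H'.eq h H)

end QD

theorem Sy.exists_fix [Finite V] (h : Sy G B) {p : ℕ} [Fact p.Prime] [CharP F p] {c : G}
    {P : Subgroup G} (hP : IsPGroup p P) (hc : ∀ a ∈ P, a * c = c * a) {u : V} (hu : c • u = -u)
    (h0 : u ≠ 0) : ∃ v : V, c • v = -v ∧ v ≠ 0 ∧ ∀ a ∈ P, a • v = v := by
  let U : SubMulAction P V :=
    { carrier := {v | c • v = -v}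
      smul_mem' := fun a v hv => minus_of_comm (hc a a.2) hv }
  let U' : AddSubgroup V :=
    { carrier := {v | c • v = -v}
      zero_mem' := by simp
      add_mem' := fun {a b} ha hb => by
        change c • (a + b) = _
        rw [smul_add, ha, hb, neg_add]
      neg_mem' := fun {a} ha => by
        change c • (-a) = _
        rw [smul_neg, ha] }
  have h1 : p ∣ Nat.card U := by
    change p ∣ Nat.card U'
    have : addOrderOf (⟨u, hu⟩ : U') = p := by
      refine addOrderOf_eq_prime (Subtype.ext ?_) fun e => h0 (congrArg Subtype.val e)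
      change p • u = 0
      rw [← Nat.cast_smul_eq_nsmul F, CharP.cast_eq_zero, zero_smul]
    exact this ▸ addOrderOf_dvd_natCard _
  obtain ⟨v, hv, hne⟩ := hP.exists_fixed_point_of_prime_dvd_card_of_fixed_point U h1
    (a := ⟨0, U'.zero_mem⟩) fun a => Subtype.ext (smul_zero _)
  exact ⟨v, v.2, fun e => hne (Subtype.ext e.symm), fun a ha =>
    congrArg Subtype.val (hv ⟨a, ha⟩)⟩

/-- No two conjugates have a product of order four. -/
def NB (z : G) : Prop := ∀ g : G, (z * (g * z * g⁻¹)) ^ 4 = 1 → (z * (g * z * g⁻¹)) ^ 2 = 1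

theorem mem_zpowers_invol {c x : G} (hc : c * c = 1) (hx : x ∈ zpowers c) : x = 1 ∨ x = c := by
  obtain ⟨k, rfl⟩ := hx
  obtain ⟨l, rfl | rfl⟩ := Int.even_or_odd' k
  · left
    simp only [zpow_mul, zpow_ofNat, sq, hc, one_zpow]
  · right
    simp only [zpow_add, zpow_mul, zpow_ofNat, sq, hc, one_zpow, pow_one, one_mul]

theorem Sy.p2 [Finite G] [Finite V] [FiniteDimensional F V] (h : Sy G B) {p : ℕ} [Fact p.Prime]
    [CharP F p] {z i j : G} {T : Subgroup G} (Q : QD B z T i j) (nb : NB z) {k g : G}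
    (ho : Orth V z (k * z * k⁻¹)) (hw : g * z * g⁻¹ ∈ Gam V (z * (k * z * k⁻¹))) :
    g * z * g⁻¹ = z ∨ g * z * g⁻¹ = k * z * k⁻¹ := by
  have Q' := Q.conj h k
  set z' := k * z * k⁻¹
  set c := z * z' with hc
  have hz := Q.pi.sq h
  have hzi := Q.pi.inv_eq h
  have hz' := Q'.pi.sq h
  have hzz := h.orth_comm hz hz' ho
  have hc2 : c * c = 1 := by
    rw [hc, mul_assoc, ← mul_assoc z', ← hzz, mul_assoc z z' z', hz', mul_one, hz]
  have hL : Gam V z ≤ Gam V c := fun x hx v hv => hx v ((h.plus_mul_iff hz hz' ho).1 hv).1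
  have hL' : Gam V z' ≤ Gam V c := fun x hx v hv => hx v ((h.plus_mul_iff hz hz' ho).1 hv).2
  have hm : ∀ v : V, c • v = -v → z • v = v → z' • v = -v := fun v h1 h2 => by
    rw [hc, hzz, mul_smul, h2] at h1
    exact h1
  have key : ∀ l : G, l * z * l⁻¹ ∈ Gam V c → (z * (l * z * l⁻¹)) ^ 4 = 1 →
      l * z * l⁻¹ = z ∨ l * z * l⁻¹ = z' := by
    intro l hl h4
    have hy := Q.pi.conj h l
    have h2 := nb l h4
    generalize l * z * l⁻¹ = y at *
    have h3 : z * y = y * z := by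
      rw [sq, mul_eq_one_iff_eq_inv, mul_inv_rev, hzi, hy.inv_eq h] at h2
      exact h2
    refine (Q.pi.eq_or_orth h hy h3).imp Eq.symm fun h5 => hy.eq_of_le h Q'.pi fun v hv => ?_
    exact hm v (h.minus_of_orth hc2 fun u hu => h.mp hv (hl u hu)) (h5 v hv)
  by_contra hne
  have hcL : Gam V c ≤ 𝐂(zpowers c) := fun x hx => by
    rw [centralizer_zpowers, mem_centralizer_singleton_iff]
    exact h.gam_comm hc2 hx
  obtain ⟨N, h1, h2, h3, h4, h5⟩ := zstar_sub (zpowers_le.2 (self_mem_Gam (V := V) c)) hcL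
    (hL (self_mem_Gam z)) hz (fun e => (mem_zpowers_invol hc2 e).elim (Q.pi.ne_one h) fun e =>
      Q'.pi.ne_one h (left_eq_mul.1 e)) fun l hl e => by
      have e1 : (z * (l * z * l⁻¹)) ^ 4 = 1 := by
        rw [hzi, (Q.pi.conj h l).inv_eq h, mul_assoc, ← sq] at e
        rw [show 4 = 2 * 2 from rfl, pow_mul]
        rcases mem_zpowers_invol hc2 e with e | e <;> rw [e]
        · exact one_pow 2
        · rw [sq, hc2]
      rcases key l (mul_mem (mul_mem hl (hL (self_mem_Gam z))) (inv_mem hl)) e1 with e | e <;> rw [e]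
      · simp
      · rw [hzi]
        exact mem_zpowers c
  obtain ⟨Z, hZ, hZ'⟩ := h.rank Q.pi Q'.pi
  have hTT : IsPGroup 2 (T ⊔ cj[k] T : Subgroup G) :=
    Q.pg.to_sup_of_normal_right' Q'.pg fun t ht => centralizer_le_normalizer _ fun s hs =>
      (h.gam_commute hz hz' ho (Q.le ht) (Q'.le hs)).symm
  obtain ⟨P, hPN, hP, hTP, a, ha, haz⟩ := h.zs hz (Q.le Q.hi) Q.ii hTT (mem_sup_left Q.hi)
    ((sup_le (Q.le.trans hL) (Q'.le.trans hL')).trans h3) h1 (h2.trans hcL)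
    (fun x hx => (mem_centralizer_iff'.1 (hcL (hL (self_mem_Gam z))) x hx)) h4 hZ
    (fun n hn => hZ' n fun v e1 e2 => h2 hn v ((h.plus_mul_iff hz hz' ho).2 ⟨e1, e2⟩))
    ⟨_, h5 _ hw, fun e => hne (key g hw (by
      have hy := (Q.pi.conj h g).sq h
      rw [hzi, (Q.pi.conj h g).inv_eq h] at e
      generalize g * z * g⁻¹ = y at *
      calc (z * y) ^ 4 = z * y * (z * y * z * y * z) * y := by simp only [pow_succ]; group
        _ = z * y * (z * z) * y * z * y * y := by rw [e]; group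
        _ = z * (y * y) * z * (y * y) := by rw [hz]; group
        _ = 1 := by rw [hy, mul_one, mul_one, hz]))⟩
  have hPc : ∀ a ∈ P, a * c = c * a := fun a ha => h.gam_comm hc2 (h2 (hPN ha))
  obtain ⟨u, hu, h0⟩ := Q.pi.exists_ne h
  obtain ⟨v, hv, h0, hf⟩ := h.exists_fix hP hPc (u := u)
    (by rw [hc, mul_smul, h.orth_symm hz' ho u hu, hu]) h0
  obtain ⟨y, m, hy, hm', rfl⟩ := h.dec hz v
  have hfm : ∀ a ∈ P, a • m = m := by
    intro a ha
    have e1 := hf _ (conj_mem_of_mem_normalizer' (hTP (mem_sup_left Q.zmem)) ha)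
    rw [mul_smul, mul_smul, inv_smul_eq_iff, smul_add z, hy, hm'] at e1
    have e2 := hf a ha
    rw [← sub_eq_zero]
    apply h.two_smul_eq_zero
    simp only [smul_add, smul_neg, two_smul] at e1 e2 ⊢
    linear_combination (norm := abel) e2 - e1
  by_cases hm0 : m = 0
  · rw [hm0, add_zero] at hv h0 hf
    have := Q'.comm_of_fix h (le_sup_right.trans hTP) (hm y hv hy) h0 hf ha
    apply haz
    have e : z = c * z' := by rw [hc, mul_assoc, hz', mul_one]
    rw [e, ← mul_assoc, hPc a ha, mul_assoc, this, mul_assoc c]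
  · exact haz (Q.comm_of_fix h (le_sup_left.trans hTP) hm' hm0 hfm ha)

end CF.PnSp
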